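import Cfsg.Agent.Lib.ClassicalForms.Ortho.Standard

/-!
Sylow 2-subgroups of the isometry group of a plus type quadratic form over the field with two
elements: any two of them meet non-trivially.
-/

set_option autoImplicit false

namespace CfsgLib.CharDegrees.OrthSylow

open QuadraticMap Module CfsgLib.ClassicalForms

universe u v

variable {F : Type u} {E : Type v} [Field F] [AddCommGroup E] [Module F E]
  (Q : QuadraticForm F E)

/-- The orthogonal complement for the polar form. -/
noncomputable def perp (V : Submodule F E) : Submodule F E :=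
  LinearMap.BilinForm.orthogonal (polarBilin Q) V

variable {Q}

theorem mem_perp {V : Submodule F E} {x : E} : x ∈ perp Q V ↔ ∀ n ∈ V, polar Q n x = 0 :=
  Iff.rfl

theorem perp_symm {V : Submodule F E} {x n : E} (hx : x ∈ perp Q V) (hn : n ∈ V) :
    polar Q x n = 0 := by rw [polar_comm]; exact mem_perp.1 hx n hn

theorem finrank_perp [FiniteDimensional F E] (hQ : Nondeg Q) (V : Submodule F E) :
    finrank F (perp Q V) = finrank F E - finrank F V := by
  refine LinearMap.BilinForm.finrank_orthogonal ⟨fun x hx => hQ x hx, fun y hy => ?_⟩ V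
  exact hQ y fun x => by rw [polar_comm]; exact hy x

/-- `V` is totally singular. -/
def TS (Q : QuadraticForm F E) (V : Submodule F E) : Prop := ∀ v ∈ V, Q v = 0

theorem TS.le_perp {V : Submodule F E} (h : TS Q V) : V ≤ perp Q V := by
  intro x hx
  rw [mem_perp]
  intro n hn
  simp [polar, h _ (add_mem hn hx), h n hn, h x hx]

theorem TS.sup_span {V : Submodule F E} (h : TS Q V) {w : E} (hw : w ∈ perp Q V) (hw0 : Q w = 0) :
    TS Q (V ⊔ F ∙ w) := by
  intro z hz
  obtain ⟨v, hv, y, hy, rfl⟩ := Submodule.mem_sup.1 hz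
  obtain ⟨c, rfl⟩ := Submodule.mem_span_singleton.1 hy
  simp [QuadraticMap.map_add ⇑Q, QuadraticMap.map_smul, h v hv, hw0, polar_smul_right,
    mem_perp.1 hw v hv]

theorem finrank_sup_span [FiniteDimensional F E] {V : Submodule F E} {w : E} (hw : w ∉ V) :
    finrank F (V ⊔ F ∙ w : Submodule F E) = finrank F V + 1 := by
  have h0 : w ≠ 0 := fun h => hw (h ▸ zero_mem V)
  have h := Submodule.finrank_sup_add_finrank_inf_eq V (F ∙ w)
  have hinf : V ⊓ F ∙ w = ⊥ := disjoint_iff.1 (Submodule.disjoint_span_singleton_of_notMem hw)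
  rw [hinf, finrank_bot, finrank_span_singleton h0] at h
  omega

/-- `g` fixes `V` as a set. -/
def Stab (V : Submodule F E) (g : orth Q) : Prop := ∀ v ∈ V, (g : E ≃ₗ[F] E) v ∈ V

/-- The pointwise stabiliser of `V`. -/
def fixer (Q : QuadraticForm F E) (V : Submodule F E) : Subgroup (orth Q) where
  carrier := {g | ∀ v ∈ V, (g : E ≃ₗ[F] E) v = v}
  one_mem' v _ := rfl
  mul_mem' {a b} ha hb v hv := by rw [orth_mul_apply, hb v hv, ha v hv]
  inv_mem' {a} ha v hv := by
    conv_lhs => rw [← ha v hv]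
    exact orth_inv_apply a v

theorem mem_fixer {V : Submodule F E} {g : orth Q} :
    g ∈ fixer Q V ↔ ∀ v ∈ V, (g : E ≃ₗ[F] E) v = v := Iff.rfl

theorem le_normalizer_fixer {V : Submodule F E} {H : Subgroup (orth Q)} (hH : ∀ h ∈ H, Stab V h) :
    H ≤ Subgroup.normalizer (fixer Q V : Set (orth Q)) := by
  intro h hh
  rw [Subgroup.mem_normalizer_iff]
  intro k
  constructor
  · intro hk v hv
    rw [orth_mul_apply, orth_mul_apply, hk _ (hH _ (inv_mem hh) v hv), orth_apply_inv]
  · intro hk v hv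
    have h1 := hk _ (hH h hh v hv)
    rw [orth_mul_apply, orth_mul_apply, orth_inv_apply] at h1
    exact (h : E ≃ₗ[F] E).injective h1

/-- A 2-group fixes a non-zero vector of a quotient of invariant subspaces. -/
theorem exists_fixed_coset [Finite E] (h2 : Nat.card F = 2) [FiniteDimensional F E]
    {H : Subgroup (orth Q)} (hH : IsPGroup 2 H) {A B : Submodule F E} (hAB : A < B)
    (hA : ∀ h ∈ H, Stab A h) (hB : ∀ h ∈ H, Stab B h) :
    ∃ b ∈ B, b ∉ A ∧ ∀ h ∈ H, ((h : orth Q) : E ≃ₗ[F] E) b - b ∈ A := by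
  haveI : Finite F := Nat.finite_of_card_ne_zero (by omega)
  haveI : Finite (E ⧸ A) := Finite.of_surjective _ (Submodule.Quotient.mk_surjective A)
  letI : MulAction H (B.map A.mkQ) :=
    { smul := fun h c => ⟨A.mapQ A ((h : orth Q) : E ≃ₗ[F] E).toLinearMap (fun v hv => hA _ h.2 v hv) c.1, by
        obtain ⟨b, hb, hc⟩ := Submodule.mem_map.1 c.2
        exact Submodule.mem_map.2 ⟨_, hB _ h.2 b hb, by rw [← hc]; rfl⟩⟩
      one_smul := fun c => by
        apply Subtype.ext
        obtain ⟨b, -, hc⟩ := Submodule.mem_map.1 c.2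
        change A.mapQ A _ _ c.1 = c.1
        rw [← hc]
        rfl
      mul_smul := fun g h c => by
        apply Subtype.ext
        obtain ⟨b, -, hc⟩ := Submodule.mem_map.1 c.2
        change A.mapQ A _ _ c.1 = A.mapQ A _ _ (A.mapQ A _ _ c.1)
        rw [← hc]
        rfl }
  have hd : 2 ∣ Nat.card (B.map A.mkQ) := by
    rw [Module.natCard_eq_pow_finrank (K := F), h2]
    refine dvd_pow_self 2 fun h0 => ?_
    have hbot := Submodule.finrank_eq_zero.1 h0
    exact not_le_of_gt hAB fun b hb => (Submodule.Quotient.mk_eq_zero A).1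
      ((Submodule.mem_bot F).1 (hbot ▸ Submodule.mem_map_of_mem hb))
  have h00 : (0 : B.map A.mkQ) ∈ MulAction.fixedPoints H (B.map A.mkQ) := fun h =>
    Subtype.ext (map_zero (A.mapQ A _ _))
  obtain ⟨c, hc, hc0⟩ := hH.exists_fixed_point_of_prime_dvd_card_of_fixed_point _ hd h00
  obtain ⟨b, hb, hcb⟩ := Submodule.mem_map.1 c.2
  refine ⟨b, hb, fun hbA => hc0 (Subtype.ext ?_), fun h hh => ?_⟩
  · change (0 : E ⧸ A) = c.1
    rw [← hcb]
    exact ((Submodule.Quotient.mk_eq_zero A).2 hbA).symm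
  · have h1 : A.mapQ A ((h : orth Q) : E ≃ₗ[F] E).toLinearMap (fun v hv => hA _ hh v hv) c.1 = c.1 :=
      congrArg Subtype.val (hc ⟨h, hh⟩)
    rw [← hcb] at h1
    exact (Submodule.Quotient.eq A).1 h1

section Two

variable [FiniteDimensional F E] (hF : ∀ t : F, t = 0 ∨ t = 1)

include hF

theorem two_zero : (2 : F) = 0 := by
  rcases hF 2 with h | h
  · exact h
  · exact absurd (by linear_combination h : (1 : F) = 0) one_ne_zero

theorem sub_eq_add' (x y : E) : x - y = x + y := by
  have : y + y = 0 := by rw [← two_smul F y, two_zero hF, zero_smul]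
  rw [sub_eq_add_neg, neg_eq_of_add_eq_zero_right this]

theorem polar_self_zero (x : E) : polar Q x x = 0 := by
  rw [polar_self_mul, two_zero hF, zero_mul]

/-- Extending an invariant totally singular subspace. -/
theorem extend [Finite E] (h2 : Nat.card F = 2) (hQ : Nondeg Q) {H : Subgroup (orth Q)}
    (hH : IsPGroup 2 H) {V : Submodule F E} (hV : TS Q V) (hVH : ∀ h ∈ H, Stab V h)
    (hd : 2 * finrank F V + 4 ≤ finrank F E) :
    ∃ V' : Submodule F E, TS Q V' ∧ (∀ h ∈ H, Stab V' h) ∧ finrank F V' = finrank F V + 1 := by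
  have hperp : ∀ h ∈ H, Stab (perp Q V) h := fun h hh x hx => mem_perp.2 fun n hn => by
    have := mem_perp.1 hx _ (hVH _ (inv_mem hh) n hn)
    rwa [← polar_apply h, orth_apply_inv] at this
  have hlt : V < perp Q V := by
    refine lt_of_le_of_ne hV.le_perp fun he => ?_
    have h1 := finrank_perp hQ V
    rw [← he] at h1
    omega
  suffices ∃ w ∈ perp Q V, w ∉ V ∧ Q w = 0 ∧ ∀ h ∈ H, ((h : orth Q) : E ≃ₗ[F] E) w - w ∈ V by
    obtain ⟨w, hw, hwV, hw0, hwf⟩ := this
    refine ⟨V ⊔ F ∙ w, hV.sup_span hw hw0, fun h hh z hz => ?_, finrank_sup_span hwV⟩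
    obtain ⟨v, hv, y, hy, rfl⟩ := Submodule.mem_sup.1 hz
    obtain ⟨c, rfl⟩ := Submodule.mem_span_singleton.1 hy
    rw [map_add, map_smul]
    refine add_mem (Submodule.mem_sup_left (hVH h hh v hv)) (Submodule.smul_mem _ c ?_)
    have := add_mem (Submodule.mem_sup_left (T := F ∙ w) (hwf h hh))
      (Submodule.mem_sup_right (S := V) (Submodule.mem_span_singleton_self w))
    rwa [sub_add_cancel] at this
  obtain ⟨e, he, heV, hef⟩ := exists_fixed_coset h2 hH hlt hVH hperp
  rcases hF (Q e) with he0 | he1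
  · exact ⟨e, he, heV, he0, hef⟩
  set A := V ⊔ F ∙ e with hA
  have hAH : ∀ h ∈ H, Stab A h := by
    intro h hh z hz
    obtain ⟨v, hv, y, hy, rfl⟩ := Submodule.mem_sup.1 hz
    obtain ⟨c, rfl⟩ := Submodule.mem_span_singleton.1 hy
    rw [map_add, map_smul]
    refine add_mem (Submodule.mem_sup_left (hVH h hh v hv)) (Submodule.smul_mem _ c ?_)
    have := add_mem (Submodule.mem_sup_left (T := F ∙ e) (hef h hh))
      (Submodule.mem_sup_right (S := V) (Submodule.mem_span_singleton_self e))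
    rwa [sub_add_cancel] at this
  have hAB : A ≤ perp Q A := by
    intro z hz
    rw [mem_perp]
    intro n hn
    obtain ⟨v, hv, y, hy, rfl⟩ := Submodule.mem_sup.1 hz
    obtain ⟨c, rfl⟩ := Submodule.mem_span_singleton.1 hy
    obtain ⟨v', hv', y', hy', rfl⟩ := Submodule.mem_sup.1 hn
    obtain ⟨c', rfl⟩ := Submodule.mem_span_singleton.1 hy'
    simp [polar_add_left, polar_add_right, polar_smul_left, polar_smul_right,
      mem_perp.1 (hV.le_perp hv) v' hv', mem_perp.1 he v' hv', perp_symm he hv, polar_self_zero hF]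
  have hAlt : A < perp Q A := by
    refine lt_of_le_of_ne hAB fun h' => ?_
    have h1 := finrank_perp hQ A
    rw [← h', hA, finrank_sup_span heV] at h1
    omega
  have hpA : ∀ h ∈ H, Stab (perp Q A) h := fun h hh x hx => mem_perp.2 fun n hn => by
    have := mem_perp.1 hx _ (hAH _ (inv_mem hh) n hn)
    rwa [← polar_apply h, orth_apply_inv] at this
  obtain ⟨b, hb, hbA, hbf⟩ := exists_fixed_coset h2 hH hAlt hAH hpA
  have heA : e ∈ A := Submodule.mem_sup_right (Submodule.mem_span_singleton_self e)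
  obtain ⟨b, hb, hbA, hbf, hb0⟩ : ∃ b ∈ perp Q A, b ∉ A ∧
      (∀ h ∈ H, ((h : orth Q) : E ≃ₗ[F] E) b - b ∈ A) ∧ Q b = 0 := by
    rcases hF (Q b) with hb0 | hb1
    · exact ⟨b, hb, hbA, hbf, hb0⟩
    · refine ⟨b + e, add_mem hb (hAB heA), fun h' => hbA ?_, fun h hh => ?_, ?_⟩
      · simpa using sub_mem h' heA
      · rw [map_add, add_sub_add_comm]
        exact add_mem (hbf h hh) (Submodule.mem_sup_left (hef h hh))
      · rw [QuadraticMap.map_add ⇑Q, he1, hb1, perp_symm hb heA, add_zero, one_add_one_eq_two,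
          two_zero hF]
  refine ⟨b, LinearMap.BilinForm.orthogonal_le le_sup_left hb,
    fun h' => hbA (Submodule.mem_sup_left h'), hb0, fun h hh => ?_⟩
  obtain ⟨v, hv, y, hy, hvy⟩ := Submodule.mem_sup.1 (hbf h hh)
  obtain ⟨c, rfl⟩ := Submodule.mem_span_singleton.1 hy
  rcases hF c with rfl | rfl
  · rw [zero_smul, add_zero] at hvy
    rwa [← hvy]
  · exfalso
    rw [one_smul, eq_sub_iff_add_eq] at hvy
    have h1 := orth_apply h b
    have hev : polar Q v e = 0 := mem_perp.1 he v hv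
    have hbv : polar Q v b = 0 := mem_perp.1 hb v (Submodule.mem_sup_left hv)
    have hbe : polar Q e b = 0 := mem_perp.1 hb e heA
    rw [← hvy, QuadraticMap.map_add ⇑Q (v + e), QuadraticMap.map_add ⇑Q v, hV v hv, he1, hb0,
      polar_add_left, hev, hbv, hbe] at h1
    exact (one_ne_zero : (1 : F) ≠ 0) (by simpa using h1)

/-- A 2-group fixes a totally singular subspace of dimension `m - 1`. -/
theorem exists_invariant [Finite E] (h2 : Nat.card F = 2) (hQ : Nondeg Q) {H : Subgroup (orth Q)}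
    (hH : IsPGroup 2 H) (k : ℕ) (hk : 2 * k + 2 ≤ finrank F E) :
    ∃ V : Submodule F E, TS Q V ∧ (∀ h ∈ H, Stab V h) ∧ finrank F V = k := by
  induction k with
  | zero =>
    exact ⟨⊥, fun v hv => by rw [(Submodule.mem_bot F).1 hv, QuadraticMap.map_zero],
      fun h _ v hv => by rw [(Submodule.mem_bot F).1 hv, map_zero]; exact zero_mem _, finrank_bot _ _⟩
  | succ k ih =>
    obtain ⟨V, hV, hVH, hd⟩ := ih (by omega)
    obtain ⟨V', h1, h2', h3⟩ := extend hF h2 hQ hH hV hVH (by omega)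
    exact ⟨V', h1, h2', by omega⟩

/-- The pointwise stabiliser of a totally singular `(m-1)`-space is a 2-group. -/
theorem isPGroup_fixer (hQ : Nondeg Q) {U V : Submodule F E} (hU : TS Q U)
    (hUd : finrank F E = 2 * finrank F U) (hV : TS Q V) (hVd : finrank F V + 1 = finrank F U) :
    IsPGroup 2 (fixer Q V) := by
  set W := perp Q V with hW
  have hWd : finrank F W = finrank F U + 1 := by rw [finrank_perp hQ]; omega
  obtain ⟨c, hc, hc1⟩ : ∃ c ∈ W, Q c = 1 := by
    by_contra hcon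
    have hTS : TS Q W := fun w hw => (hF (Q w)).resolve_right fun h => hcon ⟨w, hw, h⟩
    have h1 := Submodule.finrank_mono hTS.le_perp
    rw [finrank_perp hQ W, hWd] at h1
    omega
  set U' := (U ⊓ W) ⊔ V with hU'
  have hU'TS : TS Q U' := by
    intro z hz
    obtain ⟨a, ha, b, hb, rfl⟩ := Submodule.mem_sup.1 hz
    rw [QuadraticMap.map_add ⇑Q, hU a ha.1, hV b hb, perp_symm ha.2 hb, add_zero, add_zero]
  have hU'W : U' ≤ W := sup_le inf_le_right hV.le_perp
  have hU'd : finrank F U' = finrank F U := by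
    have e1 : U ⊓ W = perp Q (U ⊔ V) := by
      have hUU : perp Q U = U := (Submodule.eq_of_le_of_finrank_le hU.le_perp
        (by rw [finrank_perp hQ]; omega)).symm
      apply le_antisymm
      · rintro x ⟨hxU, hxW⟩
        rw [mem_perp]
        intro n hn
        obtain ⟨a, ha, b, hb, rfl⟩ := Submodule.mem_sup.1 hn
        rw [polar_add_left, mem_perp.1 (hU.le_perp hxU) a ha, mem_perp.1 hxW b hb, add_zero]
      · exact le_inf ((LinearMap.BilinForm.orthogonal_le le_sup_left).trans hUU.le)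
          (LinearMap.BilinForm.orthogonal_le le_sup_right)
    have e2 : (U ⊓ W) ⊓ V = U ⊓ V := by
      rw [inf_assoc, inf_eq_right.2 hV.le_perp]
    have h1 := Submodule.finrank_sup_add_finrank_inf_eq (U ⊓ W) V
    have h2' := Submodule.finrank_sup_add_finrank_inf_eq U V
    rw [e2, e1, finrank_perp hQ] at h1
    have h3 := Submodule.finrank_le (U ⊔ V)
    rw [hU', e1]
    omega
  have hcU : c ∉ U' := fun h => one_ne_zero (hc1 ▸ hU'TS c h)
  have hWeq : U' ⊔ F ∙ c = W := by
    refine Submodule.eq_of_le_of_finrank_le (sup_le hU'W ?_) ?_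
    · exact (Submodule.span_singleton_le_iff_mem _ _).2 hc
    · rw [finrank_sup_span hcU, hWd, hU'd]
  have hperpW : perp Q W = V := by
    refine (Submodule.eq_of_le_of_finrank_le (fun v hv => mem_perp.2 fun n hn =>
      perp_symm hn hv) ?_).symm
    rw [finrank_perp hQ, hWd]; omega
  have hnon : ∀ c' ∈ W, Q c' = 1 → c' - c ∈ V := by
    intro c' hc' hc'1
    rw [← hWeq] at hc'
    obtain ⟨u, hu, y, hy, rfl⟩ := Submodule.mem_sup.1 hc'
    obtain ⟨t, rfl⟩ := Submodule.mem_span_singleton.1 hy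
    rw [QuadraticMap.map_add ⇑Q, QuadraticMap.map_smul, hU'TS u hu, hc1, polar_smul_right] at hc'1
    rcases hF t with rfl | rfl
    · simp at hc'1
    · simp only [one_smul, smul_eq_mul, one_mul, mul_one, zero_add, add_eq_left] at hc'1
      rw [one_smul, add_sub_cancel_right, ← hperpW, mem_perp]
      intro n hn
      rw [← hWeq] at hn
      obtain ⟨u', hu', y, hy, rfl⟩ := Submodule.mem_sup.1 hn
      obtain ⟨t, rfl⟩ := Submodule.mem_span_singleton.1 hy
      rw [polar_add_left, polar_smul_left, mem_perp.1 (hU'TS.le_perp hu) u' hu',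
        polar_comm Q c u, hc'1, smul_zero, zero_add]
  set A := V ⊔ F ∙ c with hA
  have hcV : c ∉ V := fun h => one_ne_zero (hc1 ▸ hV c h)
  have hAd : finrank F A = finrank F U := by rw [hA, finrank_sup_span hcV]; omega
  have hAA : perp Q A = A := by
    refine (Submodule.eq_of_le_of_finrank_le (fun z hz => mem_perp.2 fun n hn => ?_)
      (by rw [finrank_perp hQ]; omega)).symm
    obtain ⟨v, hv, y, hy, rfl⟩ := Submodule.mem_sup.1 hz
    obtain ⟨t, rfl⟩ := Submodule.mem_span_singleton.1 hy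
    obtain ⟨v', hv', y', hy', rfl⟩ := Submodule.mem_sup.1 hn
    obtain ⟨t', rfl⟩ := Submodule.mem_span_singleton.1 hy'
    simp [polar_add_left, polar_add_right, polar_smul_left, polar_smul_right,
      mem_perp.1 (hV.le_perp hv) v' hv', mem_perp.1 hc v' hv', perp_symm hc hv, polar_self_zero hF]
  intro g
  refine ⟨2, Subtype.ext (orth_ext fun x => ?_)⟩
  obtain ⟨g, hg⟩ := g
  change ((g ^ (2 ^ 2) : orth Q) : E ≃ₗ[F] E) x = x
  set D : E → E := fun z => (g : E ≃ₗ[F] E) z - z with hD
  have hgW : ∀ w ∈ W, (g : E ≃ₗ[F] E) w ∈ W := fun w hw => mem_perp.2 fun n hn => by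
    rw [← hg n hn, polar_apply g]; exact mem_perp.1 hw n hn
  have hD1 : ∀ z, D z ∈ W := fun z => mem_perp.2 fun n hn => by
    have h1 := polar_apply g n z
    rw [hg n hn] at h1
    rw [hD, polar_sub_right, h1, sub_self]
  have hgc : D c ∈ V := hnon _ (hgW c hc) (by rw [orth_apply, hc1])
  have hD2 : ∀ w ∈ W, D w ∈ A := by
    intro w hw
    rw [← hAA, mem_perp]
    intro n hn
    obtain ⟨v, hv, y, hy, rfl⟩ := Submodule.mem_sup.1 hn
    obtain ⟨t, rfl⟩ := Submodule.mem_span_singleton.1 hy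
    have hgcc : (g : E ≃ₗ[F] E) c = c + D c := (add_sub_cancel _ _).symm
    have h1 := polar_apply g c w
    rw [hgcc, polar_add_left, mem_perp.1 (hgW w hw) _ hgc, add_zero] at h1
    rw [polar_add_left, polar_smul_left, mem_perp.1 (hD1 w) v hv, zero_add]
    simp only [hD, polar_sub_right, h1, sub_self, smul_zero]
  have hD3 : ∀ a ∈ A, D a ∈ V := by
    intro a ha
    obtain ⟨v, hv, y, hy, rfl⟩ := Submodule.mem_sup.1 ha
    obtain ⟨t, rfl⟩ := Submodule.mem_span_singleton.1 hy
    have : D (v + t • c) = t • D c := by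
      simp only [hD, map_add, map_smul, hg v hv, smul_sub]; abel
    rw [this]; exact Submodule.smul_mem _ _ hgc
  have key : ∀ z, D (D (D (D z))) = 0 := fun z =>
    sub_eq_zero.2 (hg _ (hD3 _ (hD2 _ (hD1 z))))
  have gen : ∀ (f : E →ₗ[F] E) (z : E), f (f z) - z = f (f z - z) - (f z - z) := by
    intro f z
    have h0 : f z + f z = 0 := by rw [← sub_eq_add' hF, sub_self]
    rw [map_sub, sub_eq_add' hF _ z]
    calc f (f z) + z = f (f z) + z - (f z + f z) := by rw [h0, sub_zero]
      _ = _ := by abel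
  have hsq : ∀ z, (g : E ≃ₗ[F] E) ((g : E ≃ₗ[F] E) z) - z = D (D z) := fun z =>
    gen (g : E ≃ₗ[F] E).toLinearMap z
  have e4 : ((g ^ (2 ^ 2) : orth Q) : E ≃ₗ[F] E) x - x = D (D (D (D x))) := by
    rw [show g ^ (2 ^ 2) = (g * g) * (g * g) by simp only [show (2 : ℕ) ^ 2 = 4 from rfl, pow_succ, pow_zero, one_mul, mul_assoc]]
    simp only [orth_mul_apply]
    rw [← hsq (D (D x)), ← hsq x]
    exact gen ((g : E ≃ₗ[F] E).toLinearMap ∘ₗ (g : E ≃ₗ[F] E).toLinearMap) x
  rw [key] at e4
  exact sub_eq_zero.1 e4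

/-- Two pointwise stabilisers share a non-trivial element. -/
theorem exists_common (hQ : Nondeg Q) {V W : Submodule F E}
    (hd : finrank F V + finrank F W + 2 ≤ finrank F E) :
    ∃ g : orth Q, g ≠ 1 ∧ g ∈ fixer Q V ∧ g ∈ fixer Q W := by
  set S := perp Q (V ⊔ W) with hS
  have hSd : 2 ≤ finrank F S := by
    have := Submodule.finrank_add_le_finrank_add_finrank V W
    rw [hS, finrank_perp hQ]
    omega
  have hSV : ∀ s ∈ S, ∀ v ∈ V, polar Q v s = 0 := fun s hs v hv =>
    mem_perp.1 hs v (Submodule.mem_sup_left hv)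
  have hSW : ∀ s ∈ S, ∀ v ∈ W, polar Q v s = 0 := fun s hs v hv =>
    mem_perp.1 hs v (Submodule.mem_sup_right hv)
  by_cases hex : ∃ c ∈ S, Q c ≠ 0
  · obtain ⟨c, hc, hc0⟩ := hex
    refine ⟨refl Q c hc0, fun h1 => ?_, fun v hv => refl_fix hc0 (hSV c hc v hv),
      fun v hv => refl_fix hc0 (hSW c hc v hv)⟩
    have hcne : c ≠ 0 := fun h => hc0 (by rw [h, QuadraticMap.map_zero])
    obtain ⟨x, hx⟩ := hQ.exists_polar_ne hcne
    have h2' := congrArg (fun k : orth Q => (k : E ≃ₗ[F] E) x) h1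
    simp only [refl_apply, orth_one_apply, sub_eq_self, smul_eq_zero, mul_eq_zero,
      inv_eq_zero] at h2'
    rw [polar_comm] at hx
    rcases h2' with (h | h) | h
    · exact hc0 h
    · exact hx h
    · exact hcne h
  have hex' : ∀ c ∈ S, Q c = 0 := fun c hc => not_not.1 fun h => hex ⟨c, hc, h⟩
  have hSbot : S ≠ ⊥ := fun h => by rw [h, finrank_bot] at hSd; omega
  obtain ⟨a, ha, ha0⟩ := Submodule.exists_mem_ne_zero_of_ne_bot hSbot
  obtain ⟨b, hb, hba⟩ : ∃ b ∈ S, b ∉ F ∙ a := by
    by_contra hcon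
    have hle : S ≤ F ∙ a := fun b hb => not_not.1 fun h => hcon ⟨b, hb, h⟩
    have := Submodule.finrank_mono hle
    rw [finrank_span_singleton ha0] at this
    omega
  have hab : polar Q a b = 0 := mem_perp.1 ((show TS Q S from hex').le_perp hb) a ha
  refine ⟨siegel Q a b (hex' a ha) hab, fun h1 => ?_, fun v hv => ?_, fun v hv => ?_⟩
  · obtain ⟨x, hx⟩ := hQ.exists_polar_ne ha0
    rw [polar_comm] at hx
    have h2' := congrArg (fun k : orth Q => (k : E ≃ₗ[F] E) x) h1
    simp only [siegel_apply, orth_one_apply, hex' b hb, zero_mul, add_zero] at h2'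
    rw [add_sub_assoc, add_eq_left, sub_eq_zero] at h2'
    apply hba
    rw [Submodule.mem_span_singleton]
    exact ⟨(polar Q x a)⁻¹ * polar Q x b, by
      rw [mul_smul, ← h2', inv_smul_smul₀ hx]⟩
  · rw [siegel_apply, hSV a ha v hv, hSV b hb v hv]; simp
  · rw [siegel_apply, hSW a ha v hv, hSW b hb v hv]; simp

/-- Any two Sylow 2-subgroups meet non-trivially. -/
theorem sylow_inter_ne_bot [Finite E] (h2 : Nat.card F = 2) (hQ : Nondeg Q) {U : Submodule F E}
    (hU : TS Q U) (hUd : finrank F E = 2 * finrank F U) (hU1 : 1 ≤ finrank F U)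
    (P P' : Sylow 2 (orth Q)) : (P : Subgroup (orth Q)) ⊓ P' ≠ ⊥ := by
  have main : ∀ S : Sylow 2 (orth Q), ∃ V : Submodule F E,
      finrank F V + 1 = finrank F U ∧ fixer Q V ≤ S := by
    intro S
    obtain ⟨V, hV, hVH, hd⟩ := exists_invariant hF h2 hQ S.2 (finrank F U - 1) (by omega)
    refine ⟨V, by omega, ?_⟩
    have hp := IsPGroup.to_sup_of_normal_right' S.2 (isPGroup_fixer hF hQ hU hUd hV (by omega))
      (le_normalizer_fixer hVH)
    exact le_sup_right.trans (S.3 hp le_sup_left).le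
  obtain ⟨V, hd, hle⟩ := main P
  obtain ⟨W, hd', hle'⟩ := main P'
  obtain ⟨g, hg1, hgV, hgW⟩ := exists_common hF hQ (V := V) (W := W) (by omega)
  intro hbot
  exact hg1 ((Subgroup.eq_bot_iff_forall _).1 hbot g ⟨hle hgV, hle' hgW⟩)

end Two

end CfsgLib.CharDegrees.OrthSylow
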