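import Cfsg.Agent.Lib.ClassK.SLBorel
import Cfsg.Agent.Lib.ClassicalLinear.Sylow

/-!
Sylow 2-subgroups of the special linear group over the field with two elements.
-/

set_option autoImplicit false

namespace CfsgLib.CharDegrees.SLTwoSylow

open Matrix CfsgLib.ClassK.SLn
open scoped Pointwise

variable {n : ℕ}

local notation "𝔾" => SpecialLinearGroup (Fin n) (ZMod 2)
local notation "𝔽" => ZMod 2

theorem eq_one_of_ne_zero {t : 𝔽} (h : t ≠ 0) : t = 1 := by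
  revert h; revert t; decide

/-- Supported in the first `k` coordinates. -/
def Supp (a : Fin n → 𝔽) (k : ℕ) : Prop := ∀ i : Fin n, k ≤ (i : ℕ) → a i = 0

theorem coe_mul' (g h : 𝔾) : ((g * h : 𝔾) : Matrix (Fin n) (Fin n) 𝔽) =
    (g : Matrix (Fin n) (Fin n) 𝔽) * (h : Matrix (Fin n) (Fin n) 𝔽) := rfl

theorem coe_one' : ((1 : 𝔾) : Matrix (Fin n) (Fin n) 𝔽) = 1 := rfl

theorem apply_eq_mulVec (g : 𝔾) (i j : Fin n) :
    g i j = ((g : Matrix (Fin n) (Fin n) 𝔽) *ᵥ Pi.single j 1) i := by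
  rw [Matrix.mulVec_single_one]; rfl

theorem inv_mulVec (g : 𝔾) (v : Fin n → 𝔽) :
    ((g⁻¹ : 𝔾) : Matrix (Fin n) (Fin n) 𝔽) *ᵥ ((g : Matrix (Fin n) (Fin n) 𝔽) *ᵥ v) = v := by
  rw [Matrix.mulVec_mulVec, ← coe_mul', inv_mul_cancel,
    coe_one', Matrix.one_mulVec]

theorem mulVec_inv (g : 𝔾) (v : Fin n → 𝔽) :
    (g : Matrix (Fin n) (Fin n) 𝔽) *ᵥ (((g⁻¹ : 𝔾) : Matrix (Fin n) (Fin n) 𝔽) *ᵥ v) = v := by
  rw [Matrix.mulVec_mulVec, ← coe_mul', mul_inv_cancel,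
    coe_one', Matrix.one_mulVec]

theorem self_normalizing {g : 𝔾} (hg : ∀ u ∈ upperU n 𝔽, g⁻¹ * u * g ∈ upperU n 𝔽) :
    g ∈ upperU n 𝔽 := by
  classical
  have hup : IsUp g := by
    have key : ∀ j : Fin n, ∀ i : Fin n, j < i → g i j = 0 := by
      intro j
      induction j using WellFoundedLT.induction with
      | _ j ih =>
        intro i hji
        set u : 𝔾 := SpecialLinearGroup.transvection hji.ne 1 with hu
        have humem : u ∈ upperU n 𝔽 := by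
          have := transvection_conj_mem_upperU (F := 𝔽) (isMono_one (n := n)) hji.ne (by simpa using hji) 1
          simpa [hu] using this
        set w : 𝔾 := g⁻¹ * u * g with hw
        have hwm : w ∈ upperU n 𝔽 := hg u humem
        have hgw : g * w = u * g := by rw [hw]; group
        have h1 : (g * w) j j = (u * g) j j := by rw [hgw]
        rw [coe_mul' g w, coe_mul' u g, Matrix.mul_apply, Matrix.mul_apply,
          Fintype.sum_eq_single j] at h1
        · rw [hwm.2, mul_one] at h1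
          have h2 : ∑ k, u j k * g k j = g j j + g i j := by
            simp only [hu, SpecialLinearGroup.transvection_coe, Matrix.add_apply, add_mul,
              Finset.sum_add_distrib, Matrix.one_apply, ite_mul, one_mul, zero_mul,
              Finset.sum_ite_eq, Finset.mem_univ, if_true, Matrix.single_apply, true_and]
          rw [h2, left_eq_add] at h1
          exact h1
        · intro k hk
          rcases lt_or_gt_of_ne hk with h | h
          · rw [ih k h j h, zero_mul]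
          · rw [hwm.1 k j h, mul_zero]
    exact fun i j h => key j i h
  exact ⟨hup, fun i => eq_one_of_ne_zero (diag_ne_zero_of_isUp hup i)⟩

/-- The long permutation. -/
noncomputable def w0 (n : ℕ) : SpecialLinearGroup (Fin n) (ZMod 2) :=
  ⟨(Fin.revPerm : Equiv.Perm (Fin n)).permMatrix (ZMod 2), by
    rw [det_permutation]
    rcases Int.units_eq_one_or (Equiv.Perm.sign (Fin.revPerm : Equiv.Perm (Fin n))) with h | h <;>
      rw [h] <;> simp⟩

theorem w0_apply (i j : Fin n) : w0 n i j = if Fin.rev i = j then 1 else 0 := by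
  show (Fin.revPerm : Equiv.Perm (Fin n)).permMatrix (ZMod 2) i j = _
  rw [Equiv.Perm.permMatrix, PEquiv.toMatrix_apply]
  simp [Equiv.toPEquiv_apply]

theorem mul_w0_apply (g : 𝔾) (i j : Fin n) : (g * w0 n) i j = g i (Fin.rev j) := by
  rw [coe_mul', Matrix.mul_apply, Fintype.sum_eq_single (Fin.rev j)]
  · rw [w0_apply, Fin.rev_rev, if_pos rfl, mul_one]
  · intro k hk
    rw [w0_apply, if_neg (fun h => hk (by rw [← h, Fin.rev_rev])), mul_zero]

theorem w0_mul_self : w0 n * w0 n = 1 := by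
  ext i j
  rw [mul_w0_apply, w0_apply, coe_one', Matrix.one_apply]
  simp [Fin.rev_inj]

/-- A common unitriangular element, if the flags are not opposite. -/
theorem common_of_supp {g : 𝔾} {a : Fin n → 𝔽} {k : ℕ} (ha : a ≠ 0) (hk : Supp a k)
    (hk' : Supp (((g⁻¹ : 𝔾) : Matrix (Fin n) (Fin n) 𝔽) *ᵥ a) (n - k)) :
    ∃ T : 𝔾, T ≠ 1 ∧ T ∈ upperU n 𝔽 ∧ g⁻¹ * T * g ∈ upperU n 𝔽 := by
  classical
  obtain ⟨r, hr, hmax⟩ : ∃ r : Fin n, a r ≠ 0 ∧ ∀ i, r < i → a i = 0 := by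
    have hne : (Finset.univ.filter fun i => a i ≠ 0).Nonempty := by
      obtain ⟨i, hi⟩ := Function.ne_iff.1 ha
      exact ⟨i, by simpa using hi⟩
    refine ⟨_, (Finset.mem_filter.1 (Finset.max'_mem _ hne)).2, fun i hi => ?_⟩
    by_contra h
    exact absurd (Finset.le_max' _ i (by simpa using h)) (not_le.2 hi)
  have hrk : (r : ℕ) < k := not_le.1 fun h => hr (hk r h)
  set b := ((g⁻¹ : 𝔾) : Matrix (Fin n) (Fin n) 𝔽) *ᵥ a with hb
  let L : (Fin n → 𝔽) →ₗ[𝔽] (Fin (r : ℕ) → 𝔽) × (Fin (n - k) → 𝔽) :=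
    (LinearMap.funLeft 𝔽 𝔽 (Fin.castLE r.isLt.le)).prod
      ((LinearMap.funLeft 𝔽 𝔽 (Fin.castLE (Nat.sub_le n k))).comp
        (Matrix.vecMulLinear (g : Matrix (Fin n) (Fin n) 𝔽)))
  have hlt : Module.finrank 𝔽 ((Fin (r : ℕ) → 𝔽) × (Fin (n - k) → 𝔽)) < Module.finrank 𝔽 (Fin n → 𝔽) := by
    rw [Module.finrank_prod, Module.finrank_fin_fun, Module.finrank_fin_fun, Module.finrank_fin_fun]
    omega
  obtain ⟨φ, hφ, hφ0⟩ := Submodule.exists_mem_ne_zero_of_ne_bot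
    (LinearMap.ker_ne_bot_of_finrank_lt (f := L) hlt)
  have hL := LinearMap.mem_ker.1 hφ
  have h1 : ∀ i : Fin n, i < r → φ i = 0 := fun i hi =>
    congrFun (congrArg Prod.fst hL) ⟨i, hi⟩
  have h2 : ∀ j : Fin n, (j : ℕ) < n - k → (φ ᵥ* (g : Matrix (Fin n) (Fin n) 𝔽)) j = 0 := fun j hj =>
    congrFun (congrArg Prod.snd hL) ⟨j, hj⟩
  have hdot : φ ⬝ᵥ a = 0 := by
    have : φ ⬝ᵥ a = (φ ᵥ* (g : Matrix (Fin n) (Fin n) 𝔽)) ⬝ᵥ b := by
      rw [← Matrix.dotProduct_mulVec, hb, mulVec_inv]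
    rw [this]
    refine Finset.sum_eq_zero fun j _ => ?_
    rcases lt_or_ge (j : ℕ) (n - k) with h | h
    · rw [h2 j h, zero_mul]
    · rw [hk' j h, mul_zero]
  have hφr : φ r = 0 := by
    have : φ ⬝ᵥ a = φ r * a r := Fintype.sum_eq_single r fun i hi => by
      rcases lt_or_gt_of_ne hi with h | h
      · rw [h1 i h, zero_mul]
      · rw [hmax i h, mul_zero]
    rw [hdot] at this
    exact (mul_eq_zero.1 this.symm).resolve_right hr
  have hupA : ∀ i j : Fin n, j ≤ i → a i * φ j = 0 := by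
    intro i j hji
    rcases lt_or_ge r i with h | h
    · rw [hmax i h, zero_mul]
    · rcases eq_or_lt_of_le (hji.trans h) with rfl | h'
      · rw [hφr, mul_zero]
      · rw [h1 j h', mul_zero]
  have hupB : ∀ i j : Fin n, j ≤ i → b i * (φ ᵥ* (g : Matrix (Fin n) (Fin n) 𝔽)) j = 0 := by
    intro i j hji
    rcases lt_or_ge (i : ℕ) (n - k) with h | h
    · rw [h2 j (lt_of_le_of_lt (Fin.le_def.1 hji) h), mul_zero]
    · rw [hk' i h, zero_mul]
  set M : Matrix (Fin n) (Fin n) 𝔽 := 1 + Matrix.vecMulVec a φ with hM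
  have hMlow : ∀ i j : Fin n, j < i → M i j = 0 := fun i j h => by
    simp [hM, Matrix.add_apply, Matrix.one_apply_ne h.ne', Matrix.vecMulVec_apply, hupA i j h.le]
  have hMdiag : ∀ i : Fin n, M i i = 1 := fun i => by
    simp [hM, Matrix.add_apply, Matrix.one_apply_eq, Matrix.vecMulVec_apply, hupA i i le_rfl]
  have hdet : M.det = 1 := by
    rw [Matrix.det_of_isUpperTriangular fun i j h => hMlow i j h]
    exact Finset.prod_eq_one fun i _ => hMdiag i
  refine ⟨⟨M, hdet⟩, fun h => ?_, ⟨hMlow, hMdiag⟩, ?_⟩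
  · obtain ⟨j, hj⟩ := Function.ne_iff.1 hφ0
    have := congrArg (fun T : 𝔾 => T r j) h
    simp [hM, Matrix.add_apply, Matrix.vecMulVec_apply, hr] at this
    exact hj (by simpa using this)
  · have e : ((g⁻¹ * ⟨M, hdet⟩ * g : 𝔾) : Matrix (Fin n) (Fin n) 𝔽) =
        1 + Matrix.vecMulVec b (φ ᵥ* (g : Matrix (Fin n) (Fin n) 𝔽)) := by
      show ((g⁻¹ : 𝔾) : Matrix (Fin n) (Fin n) 𝔽) * M * (g : Matrix (Fin n) (Fin n) 𝔽) = _
      rw [hM, mul_add, add_mul, mul_one, ← coe_mul', inv_mul_cancel,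
        coe_one', Matrix.mul_vecMulVec, Matrix.vecMulVec_mul]
    refine ⟨fun i j h => ?_, fun i => ?_⟩
    · rw [e, Matrix.add_apply, Matrix.one_apply_ne h.ne', Matrix.vecMulVec_apply, hupB i j h.le, add_zero]
    · rw [e, Matrix.add_apply, Matrix.one_apply_eq, Matrix.vecMulVec_apply, hupB i i le_rfl, add_zero]

/-- Opposite flags. -/
theorem eq_mul_w0_mul {g : 𝔾}
    (h : ∀ T ∈ upperU n 𝔽, g⁻¹ * T * g ∈ upperU n 𝔽 → T = 1) :
    ∃ u ∈ upperU n 𝔽, ∃ v ∈ upperU n 𝔽, g = u * w0 n * v := by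
  classical
  have hopp : ∀ (a : Fin n → 𝔽) (k : ℕ), Supp a k →
      Supp (((g⁻¹ : 𝔾) : Matrix (Fin n) (Fin n) 𝔽) *ᵥ a) (n - k) → a = 0 := by
    intro a k h1 h2
    by_contra ha
    obtain ⟨T, hT, hT1, hT2⟩ := common_of_supp ha h1 h2
    exact hT (h T hT1 hT2)
  have hcol : ∀ i : Fin n, ∃ c : Fin n → 𝔽, Supp c ((i : ℕ) + 1) ∧
      Supp (((g⁻¹ : 𝔾) : Matrix (Fin n) (Fin n) 𝔽) *ᵥ c) (n - (i : ℕ)) ∧ c ≠ 0 := by
    intro i
    let L : (Fin n → 𝔽) →ₗ[𝔽] (Fin (n - ((i : ℕ) + 1)) → 𝔽) × (Fin (i : ℕ) → 𝔽) :=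
      (LinearMap.funLeft 𝔽 𝔽 (fun j : Fin (n - ((i : ℕ) + 1)) =>
        (⟨(i : ℕ) + 1 + j, by omega⟩ : Fin n))).prod
      ((LinearMap.funLeft 𝔽 𝔽 (fun j : Fin (i : ℕ) => (⟨n - (i : ℕ) + j, by omega⟩ : Fin n))).comp
        (Matrix.mulVecLin ((g⁻¹ : 𝔾) : Matrix (Fin n) (Fin n) 𝔽)))
    have hlt : Module.finrank 𝔽 ((Fin (n - ((i : ℕ) + 1)) → 𝔽) × (Fin (i : ℕ) → 𝔽)) <
        Module.finrank 𝔽 (Fin n → 𝔽) := by
      rw [Module.finrank_prod, Module.finrank_fin_fun, Module.finrank_fin_fun, Module.finrank_fin_fun]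
      omega
    obtain ⟨c, hc, hc0⟩ := Submodule.exists_mem_ne_zero_of_ne_bot
      (LinearMap.ker_ne_bot_of_finrank_lt (f := L) hlt)
    have hL := LinearMap.mem_ker.1 hc
    refine ⟨c, fun j hj => ?_, fun j hj => ?_, hc0⟩
    · have h1 := congrFun (congrArg Prod.fst hL) ⟨(j : ℕ) - ((i : ℕ) + 1), by omega⟩
      have e : (⟨(i : ℕ) + 1 + ((j : ℕ) - ((i : ℕ) + 1)), by omega⟩ : Fin n) = j :=
        Fin.ext (by simp only; omega)
      change c (⟨(i : ℕ) + 1 + ((j : ℕ) - ((i : ℕ) + 1)), _⟩ : Fin n) = 0 at h1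
      rwa [e] at h1
    · have h1 := congrFun (congrArg Prod.snd hL) ⟨(j : ℕ) - (n - (i : ℕ)), by omega⟩
      have e : (⟨n - (i : ℕ) + ((j : ℕ) - (n - (i : ℕ))), by omega⟩ : Fin n) = j :=
        Fin.ext (by simp only; omega)
      change (((g⁻¹ : 𝔾) : Matrix (Fin n) (Fin n) 𝔽) *ᵥ c)
        (⟨n - (i : ℕ) + ((j : ℕ) - (n - (i : ℕ))), _⟩ : Fin n) = 0 at h1
      rwa [e] at h1
  choose c hc1 hc2 hc0 using hcol
  have hdiag : ∀ i, c i i = 1 := fun i => eq_one_of_ne_zero fun h0 => hc0 i (hopp (c i) i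
    (fun j hj => by
      rcases eq_or_lt_of_le hj with h | h
      · rw [show j = i from Fin.ext h.symm, h0]
      · exact hc1 i j h) (hc2 i))
  have hdiag' : ∀ i, (((g⁻¹ : 𝔾) : Matrix (Fin n) (Fin n) 𝔽) *ᵥ c i) (Fin.rev i) = 1 := fun i =>
    eq_one_of_ne_zero fun h0 => hc0 i (hopp (c i) ((i : ℕ) + 1) (hc1 i) fun j hj => by
      rcases eq_or_lt_of_le hj with h | h
      · rw [show j = Fin.rev i from Fin.ext (by rw [Fin.val_rev]; omega), h0]
      · exact hc2 i j (by omega))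
  set H : Matrix (Fin n) (Fin n) 𝔽 := Matrix.of fun i j => c j i with hH
  have hHlow : ∀ i j : Fin n, j < i → H i j = 0 := fun i j h => hc1 j i (by
    have := Fin.lt_def.1 h; omega)
  have hdet : H.det = 1 := by
    rw [Matrix.det_of_isUpperTriangular fun i j h => hHlow i j h]
    exact Finset.prod_eq_one fun i _ => hdiag i
  set u : 𝔾 := ⟨H, hdet⟩ with hu
  set y : 𝔾 := g⁻¹ * u * w0 n with hy
  have hyapp : ∀ i j, y i j = (((g⁻¹ : 𝔾) : Matrix (Fin n) (Fin n) 𝔽) *ᵥ c (Fin.rev j)) i := by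
    intro i j
    rw [hy, mul_w0_apply]
    rfl
  have hym : y ∈ upperU n 𝔽 := ⟨fun i j hji => by
      rw [hyapp]
      exact hc2 _ i (by rw [Fin.val_rev]; have := Fin.lt_def.1 hji; omega),
    fun i => by
      rw [hyapp]
      have := hdiag' (Fin.rev i)
      rwa [Fin.rev_rev] at this⟩
  refine ⟨u, ⟨hHlow, hdiag⟩, y⁻¹, inv_mem hym, ?_⟩
  have hw : (w0 n)⁻¹ = w0 n := inv_eq_of_mul_eq_one_right w0_mul_self
  rw [hy, _root_.mul_inv_rev, _root_.mul_inv_rev, inv_inv, hw]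
  rw [mul_assoc u, ← mul_assoc (w0 n) (w0 n), w0_mul_self, one_mul, mul_inv_cancel_left]

theorem conj_smul_of_mem {G : Type*} [Group G] {K : Subgroup G} {g : G} (hg : g ∈ K) :
    MulAut.conj g • K = K := by
  ext z
  rw [Subgroup.mem_pointwise_smul_iff_inv_smul_mem, MulAut.smul_def, MulAut.conj_inv_apply]
  exact ⟨fun h => by simpa [mul_assoc] using mul_mem (mul_mem hg h) (inv_mem hg),
    fun h => mul_mem (mul_mem (inv_mem hg) h) hg⟩

/-- The order of the Sylow 2-subgroups. -/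
def sylCard (n : ℕ) : ℕ := 2 ^ (n * (n - 1) / 2)

theorem card_sylow (P : Sylow 2 𝔾) : Nat.card (P : Subgroup 𝔾) = sylCard n := by
  haveI : CharP 𝔽 2 := ZMod.charP 2
  rw [CfsgLib.ClassicalLinear.card_sylow_SL]
  simp [sylCard, ZMod.card, Nat.choose_two_right]

theorem exists_conj {K : Subgroup 𝔾} (hK : Nat.card K = sylCard n) :
    ∃ a : 𝔾, K = MulAut.conj a • upperU n 𝔽 := by
  obtain ⟨P⟩ := (inferInstance : Nonempty (Sylow 2 𝔾))
  have hP : sylCard n = 2 ^ (Nat.card 𝔾).factorization 2 := by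
    rw [← card_sylow P]; exact P.card_eq_multiplicity
  have hU : Nat.card (upperU n 𝔽) = 2 ^ (Nat.card 𝔾).factorization 2 := by
    rw [← hP, card_upperU, ZMod.card]; rfl
  obtain ⟨a, ha⟩ := MulAction.exists_smul_eq 𝔾 (Sylow.ofCard (upperU n 𝔽) hU) (Sylow.ofCard K (hK.trans hP))
  refine ⟨a, ?_⟩
  have := congrArg (fun S : Sylow 2 𝔾 => (S : Subgroup 𝔾)) ha
  exact this.symm

theorem mem_of_smul_eq {K : Subgroup 𝔾} (hK : Nat.card K = sylCard n) {g : 𝔾}
    (hg : MulAut.conj g • K = K) : g ∈ K := by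
  obtain ⟨a, rfl⟩ := exists_conj hK
  have h2 : MulAut.conj (a⁻¹ * g * a) • upperU n 𝔽 = upperU n 𝔽 := by
    rw [map_mul, map_mul, map_inv, mul_smul, mul_smul, hg, inv_smul_smul]
  have := self_normalizing (g := a⁻¹ * g * a) fun u hu => by
    have h3 : u ∈ MulAut.conj (a⁻¹ * g * a) • upperU n 𝔽 := by rw [h2]; exact hu
    rwa [Subgroup.mem_pointwise_smul_iff_inv_smul_mem, MulAut.smul_def, MulAut.conj_inv_apply] at h3
  rw [Subgroup.mem_pointwise_smul_iff_inv_smul_mem, MulAut.smul_def, MulAut.conj_inv_apply]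
  exact this

theorem exists_smul_pair {A B : Subgroup 𝔾} (hA : Nat.card A = sylCard n) (hB : Nat.card B = sylCard n)
    (hAB : A ⊓ B = ⊥) :
    ∃ g : 𝔾, MulAut.conj g • A = upperU n 𝔽 ∧ MulAut.conj g • B = MulAut.conj (w0 n) • upperU n 𝔽 := by
  obtain ⟨a, rfl⟩ := exists_conj hA
  obtain ⟨b, rfl⟩ := exists_conj hB
  obtain ⟨u, hu, v, hv, huv⟩ := eq_mul_w0_mul (g := a⁻¹ * b) fun T hT hT' => by
    have hmem : a * T * a⁻¹ ∈ MulAut.conj a • upperU n 𝔽 ⊓ MulAut.conj b • upperU n 𝔽 := by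
      refine Subgroup.mem_inf.2 ⟨?_, ?_⟩
      · rw [Subgroup.mem_pointwise_smul_iff_inv_smul_mem, MulAut.smul_def, MulAut.conj_inv_apply]
        simpa [mul_assoc] using hT
      · rw [Subgroup.mem_pointwise_smul_iff_inv_smul_mem, MulAut.smul_def, MulAut.conj_inv_apply]
        simpa [mul_assoc] using hT'
    rw [hAB, Subgroup.mem_bot] at hmem
    simpa using hmem
  refine ⟨(a * u)⁻¹, ?_, ?_⟩
  · rw [← mul_smul, ← map_mul]
    have : (a * u)⁻¹ * a = u⁻¹ := by group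
    rw [this, conj_smul_of_mem (inv_mem hu)]
  · rw [← mul_smul, ← map_mul]
    have : (a * u)⁻¹ * b = w0 n * v := by
      rw [_root_.mul_inv_rev, mul_assoc, huv, mul_assoc u, inv_mul_cancel_left]
    rw [this, map_mul, mul_smul, conj_smul_of_mem hv]

theorem exists_smul_pair_pair {A B A' B' : Subgroup 𝔾} (hA : Nat.card A = sylCard n) (hB : Nat.card B = sylCard n)
    (hAB : A ⊓ B = ⊥) (hA' : Nat.card A' = sylCard n) (hB' : Nat.card B' = sylCard n)
    (hAB' : A' ⊓ B' = ⊥) :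
    ∃ g : 𝔾, MulAut.conj g • A = A' ∧ MulAut.conj g • B = B' := by
  obtain ⟨g, h1, h2⟩ := exists_smul_pair hA hB hAB
  obtain ⟨g', h1', h2'⟩ := exists_smul_pair hA' hB' hAB'
  refine ⟨g'⁻¹ * g, ?_, ?_⟩
  · rw [map_mul, mul_smul, h1, map_inv, inv_smul_eq_iff, h1']
  · rw [map_mul, mul_smul, h2, map_inv, inv_smul_eq_iff, h2']

end CfsgLib.CharDegrees.SLTwoSylow
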