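import Cfsg.Agent.Lib.CharDegrees.Sourour

/-!
Every non-central element of `SL n F` is a product of a conjugate of `diagonal β` and a conjugate of
`diagonal γ`, for diagonals with pairwise different entries and determinant 1.
-/

set_option autoImplicit false

namespace CfsgLib.CharDegrees

open Matrix Finset

variable {F : Type*} [Field F] {n : ℕ}

theorem exists_sim_diagonal (L : Matrix (Fin n) (Fin n) F) (β : Fin n → F)
    (hβ : Function.Injective β) (h : ∀ i, (L - β i • 1).det = 0) :
    IsSim L (diagonal β) := by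
  choose v hv0 hv using fun i => exists_mulVec_eq_zero_iff.mpr (h i)
  have hv' : ∀ i, L *ᵥ v i = β i • v i := fun i => by
    simpa [sub_mulVec, smul_mulVec, sub_eq_zero] using hv i
  have hli : LinearIndependent F v :=
    Module.End.eigenvectors_linearIndependent' (Matrix.toLin' L) β hβ v fun i =>
      ⟨Module.End.mem_eigenspace_iff.mpr (by rw [Matrix.toLin'_apply]; exact hv' i), hv0 i⟩
  set P : Matrix (Fin n) (Fin n) F := Matrix.of fun i j => v j i with hP
  have hu : IsUnit P := by
    refine Matrix.linearIndependent_cols_iff_isUnit.mp ?_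
    exact hli
  have hLP : L * P = P * diagonal β := by
    ext i j
    have := congrFun (hv' j) i
    rw [mul_diagonal]
    simpa [hP, Matrix.mul_apply, mulVec, dotProduct, mul_comm] using this
  have hdet : IsUnit P.det := (Matrix.isUnit_iff_isUnit_det P).mp hu
  refine ⟨P, P⁻¹, mul_nonsing_inv P hdet, nonsing_inv_mul P hdet, ?_⟩
  rw [← hLP, mul_assoc, mul_nonsing_inv P hdet, mul_one]

theorem IsLTDiag.sim_diagonal {L : Matrix (Fin n) (Fin n) F} {β : Fin n → F}
    (hL : IsLTDiag L β) (hβ : Function.Injective β) : IsSim L (diagonal β) := by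
  refine exists_sim_diagonal L β hβ fun i => ?_
  rw [det_of_isLowerTriangular]
  · exact prod_eq_zero (mem_univ i) (by simp [hL.2])
  · intro a b hab
    have hab' : a < b := hab
    simp [hL.1 a b hab', one_apply_ne hab'.ne]

theorem IsUTDiag.sim_diagonal {U : Matrix (Fin n) (Fin n) F} {γ : Fin n → F}
    (hU : IsUTDiag U γ) (hγ : Function.Injective γ) : IsSim U (diagonal γ) := by
  refine exists_sim_diagonal U γ hγ fun i => ?_
  rw [det_of_isUpperTriangular]
  · exact prod_eq_zero (mem_univ i) (by simp [hU.2])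
  · intro a b hab
    have hab' : b < a := hab
    simp [hU.1 a b hab', one_apply_ne hab'.ne']

theorem exists_sl_conj_diagonal (hn : 0 < n) {P Q : Matrix (Fin n) (Fin n) F} (hPQ : P * Q = 1)
    (β : Fin n → F) (D : Matrix.SpecialLinearGroup (Fin n) F)
    (hD : (D : Matrix (Fin n) (Fin n) F) = diagonal β) :
    ∃ u : Matrix.SpecialLinearGroup (Fin n) F,
      P * diagonal β * Q = ((u * D * u⁻¹ : Matrix.SpecialLinearGroup (Fin n) F) : Matrix (Fin n) (Fin n) F) := by
  have hdet : P.det * Q.det = 1 := by rw [← det_mul, hPQ, det_one]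
  let i0 : Fin n := ⟨0, hn⟩
  set d : Fin n → F := Function.update 1 i0 Q.det with hd
  have hdd : (diagonal d).det = Q.det := by
    rw [det_diagonal, hd, prod_update_of_mem (mem_univ _)]
    simp
  have hu : (P * diagonal d).det = 1 := by rw [det_mul, hdd, hdet]
  let u : Matrix.SpecialLinearGroup (Fin n) F := ⟨P * diagonal d, hu⟩
  refine ⟨u, ?_⟩
  set d' : Fin n → F := Function.update 1 i0 P.det with hd'
  have hdd' : diagonal d * diagonal d' = 1 := by
    rw [diagonal_mul_diagonal, ← diagonal_one]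
    congr 1
    funext i
    rcases eq_or_ne i i0 with rfl | hi
    · simp [hd, hd', mul_comm, hdet]
    · simp [hd, hd', hi]
  have hinv : ((u⁻¹ : Matrix.SpecialLinearGroup (Fin n) F) : Matrix (Fin n) (Fin n) F) = diagonal d' * Q := by
    have h1 : (u : Matrix (Fin n) (Fin n) F) * (diagonal d' * Q) = 1 := by
      show P * diagonal d * (diagonal d' * Q) = 1
      rw [mul_assoc, ← mul_assoc (diagonal d), hdd', one_mul, hPQ]
    have h2 : ((u⁻¹ : Matrix.SpecialLinearGroup (Fin n) F) : Matrix (Fin n) (Fin n) F) *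
        (u : Matrix (Fin n) (Fin n) F) = 1 := by
      exact congrArg Subtype.val (inv_mul_cancel u)
    exact left_inv_eq_right_inv h2 h1
  refine Eq.trans ?_ (Matrix.SpecialLinearGroup.coe_mul (u * D) u⁻¹).symm
  rw [hinv, Matrix.SpecialLinearGroup.coe_mul u D, hD]
  show P * diagonal β * Q = P * diagonal d * diagonal β * (diagonal d' * Q)
  have hcomm : diagonal d * diagonal β = diagonal β * diagonal d := by
    rw [diagonal_mul_diagonal, diagonal_mul_diagonal]
    simp [mul_comm]
  rw [mul_assoc P (diagonal d), hcomm]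
  simp only [mul_assoc]
  rw [← mul_assoc (diagonal d), hdd', one_mul]

/-- A non-scalar element of `SL n F` is a product of conjugates of two regular diagonal elements. -/
theorem exists_conj_mul_conj (D E A : Matrix.SpecialLinearGroup (Fin n) F) (β γ : Fin n → F)
    (hD : (D : Matrix (Fin n) (Fin n) F) = diagonal β)
    (hE : (E : Matrix (Fin n) (Fin n) F) = diagonal γ)
    (hβ : Function.Injective β) (hγ : Function.Injective γ)
    (hA : ∀ c : F, (A : Matrix (Fin n) (Fin n) F) ≠ c • 1) :
    ∃ u v : Matrix.SpecialLinearGroup (Fin n) F, A = (u * D * u⁻¹) * (v * E * v⁻¹) := by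
  rcases Nat.eq_zero_or_pos n with rfl | hn
  · exact absurd (Subsingleton.elim _ _) (hA 1)
  have hβ1 : ∏ i, β i = 1 := by
    have := D.2
    rwa [hD, det_diagonal] at this
  have hγ1 : ∏ i, γ i = 1 := by
    have := E.2
    rwa [hE, det_diagonal] at this
  obtain ⟨L, U, hL, hU, hsim⟩ := sourour (A : Matrix (Fin n) (Fin n) F) hA β γ
    (fun i h => one_ne_zero (hβ1.symm.trans (prod_eq_zero (mem_univ i) h)))
    (fun i h => one_ne_zero (hγ1.symm.trans (prod_eq_zero (mem_univ i) h)))
    (by rw [A.2, hβ1, hγ1, one_mul])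
  obtain ⟨P, Q, hPQ, hQP, hA'⟩ := hsim
  obtain ⟨S, S', hS, hS', rfl⟩ := hL.sim_diagonal hβ
  obtain ⟨T, T', hT, hT', rfl⟩ := hU.sim_diagonal hγ
  obtain ⟨u, hu⟩ := exists_sl_conj_diagonal hn (P := P * S) (Q := S' * Q)
    (by rw [mul_assoc, ← mul_assoc S, hS, one_mul, hPQ]) β D hD
  obtain ⟨v, hv⟩ := exists_sl_conj_diagonal hn (P := P * T) (Q := T' * Q)
    (by rw [mul_assoc, ← mul_assoc T, hT, one_mul, hPQ]) γ E hE
  refine ⟨u, v, Subtype.ext ?_⟩
  show (A : Matrix (Fin n) (Fin n) F) = ((u * D * u⁻¹ : Matrix.SpecialLinearGroup (Fin n) F) :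
    Matrix (Fin n) (Fin n) F) * ((v * E * v⁻¹ : Matrix.SpecialLinearGroup (Fin n) F) : Matrix (Fin n) (Fin n) F)
  rw [← hu, ← hv, hA']
  simp only [mul_assoc]
  rw [← mul_assoc Q P, hQP, one_mul]

end CfsgLib.CharDegrees
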